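import Cfsg.Agent.H20.RIM.AS
import Cfsg.Agent.H20.NX.Norm
import Cfsg.Agent.H586.NX.Tools
import Cfsg.Agent.H586.NX.Fix

/-!
# S4816, layer (B), `q = p = 3`, box K6: `n = 6`, `Q = 3` (helper994)

`4 ^ j N ≥ 3 ^ 32, 3 ^ 32, 3 ^ 40, 3 ^ 40, 3 ^ 42` for `j = 1, ..., 5`, `N` the number of conjugates of `⟨y⟩`; the bounds for the
index of the normalizer are smaller; `j = 6` is impossible because `y` has a fixed vector.
-/

set_option autoImplicit false

namespace Cfsg.Agent.H994.NX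

open Cfsg.Agent.H20.RIM Cfsg.Agent.H586.NX
open Cfsg.Agent.H37.NW (P)

/-- the sharp bound for the number of conjugates -/
def Sharp (Y U : Type*) [Group Y] [Finite Y] [AddCommGroup U] [Finite U] [DistribMulAction Y U] (n : ℕ) : Prop :=
  ∀ x : Y, orderOf x = 3 → ∀ k ≤ n, Nat.card {u : U // x • u = u} = 2 ^ (2 * (n - k)) →
    (Subgroup.centralizer ({x} : Set Y)).index * (3 * 4 ^ (k * (k - 1) / 2) * P 2 (n - k)) ≤ P 2 n

theorem P6 : P 2 6 = 2 ^ 36 * (3 * 15 * 63 * 255 * 1023 * 4095) := by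
  unfold P
  simp only [Finset.prod_range_succ, Finset.prod_range_zero]
  norm_num
theorem P5 : P 2 5 = 2 ^ 25 * (3 * 15 * 63 * 255 * 1023) := by
  unfold P
  simp only [Finset.prod_range_succ, Finset.prod_range_zero]
  norm_num
theorem P4 : P 2 4 = 2 ^ 16 * (3 * 15 * 63 * 255) := by
  unfold P
  simp only [Finset.prod_range_succ, Finset.prod_range_zero]
  norm_num
theorem P3 : P 2 3 = 2 ^ 9 * (3 * 15 * 63) := by
  unfold P
  simp only [Finset.prod_range_succ, Finset.prod_range_zero]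
  norm_num
theorem P2 : P 2 2 = 2 ^ 4 * (3 * 15) := by
  unfold P
  simp only [Finset.prod_range_succ, Finset.prod_range_zero]
  norm_num
theorem P1 : P 2 1 = 2 * 3 := by
  unfold P
  simp only [Finset.prod_range_succ, Finset.prod_range_zero]
  norm_num

variable {r : ℕ} {Y U : Type*} [Group Y] [Finite Y] [AddCommGroup U] [Finite U] [DistribMulAction Y U]
  {X : Subgroup Y} {B : U → U → ZMod 2}

theorem index_le (y : Y) : (Subgroup.normalizer ((Subgroup.zpowers y : Subgroup Y) : Set Y)).index ≤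
    (Subgroup.centralizer ({y} : Set Y)).index :=
  Subgroup.index_antitone (centralizer_le_normalizer_zpowers y)

/-- the counting inequality against the bound -/
theorem kill {j k K N E c d : ℕ} (hk : 3 * k ≤ 2 ^ j + 2) (hK : 2 ^ j + 2 < 3 * (K + 1))
    (h : 3 ^ (2 ^ 6) ≤ 4 ^ j * N * 3 ^ (2 ^ (6 - j) * k)) (hE : 2 ^ (6 - j) * K = E) (hN : N * c ≤ d)
    (hnum : 4 ^ j * d * 3 ^ E < 3 ^ 64 * c) : False := by
  have hk' : k ≤ K := by omega
  have h1 : 3 ^ (2 ^ (6 - j) * k) ≤ 3 ^ E := by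
    rw [← hE]
    exact Nat.pow_le_pow_right (by norm_num) (Nat.mul_le_mul_left _ hk')
  have h2 : 3 ^ 64 * c ≤ 4 ^ j * d * 3 ^ E := by
    calc 3 ^ 64 * c ≤ (4 ^ j * N * 3 ^ (2 ^ (6 - j) * k)) * c := Nat.mul_le_mul_right _ h
      _ ≤ (4 ^ j * N * 3 ^ E) * c := Nat.mul_le_mul_right _ (Nat.mul_le_mul_left _ h1)
      _ = 4 ^ j * (N * c) * 3 ^ E := by ring
      _ ≤ _ := Nat.mul_le_mul_right _ (Nat.mul_le_mul_left _ hN)
  omega

/-- **K6** -/
theorem kill6_of (hd : Sharp Y U 6) (A : AS (U := U) r 6 3 X B) : False := by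
  have h3 : Fact (Nat.Prime 3) := ⟨Nat.prime_three⟩
  obtain ⟨y, hy⟩ := exists_prime_orderOf_dvd_card' 3 A.S.pY
  obtain ⟨j, hj1, hjn, hfix, -, -⟩ := exists_fix A.S hy
  obtain ⟨k, hk, hcnt⟩ := A.cnt y hy j hjn hfix
  have hb := Cfsg.Agent.H20.NX.normalizer_index_le A.S hy hjn hfix
  have hs := hd y hy j hjn hfix
  have hi := index_le y
  generalize (Subgroup.normalizer ((Subgroup.zpowers y : Subgroup Y) : Set Y)).index = N at hcnt hb hi
  have hs' : N * (3 * 4 ^ (j * (j - 1) / 2) * P 2 (6 - j)) ≤ P 2 6 := (Nat.mul_le_mul_right _ hi).trans hs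
  rw [P6] at hb hs'
  rcases (show j = 1 ∨ j = 2 ∨ j = 3 ∨ j = 4 ∨ j = 5 ∨ j = 6 by omega) with rfl | rfl | rfl | rfl | rfl | rfl
  · exact kill (K := 1) hk (by norm_num) hcnt rfl hb (by rw [show 6 - 1 = 5 from rfl, P5]; norm_num)
  · exact kill (K := 2) hk (by norm_num) hcnt rfl hb (by rw [show 6 - 2 = 4 from rfl, P4]; norm_num)
  · exact kill (K := 3) hk (by norm_num) hcnt rfl hb (by rw [show 6 - 3 = 3 from rfl, P3]; norm_num)
  · exact kill (K := 6) hk (by norm_num) hcnt rfl hs' (by rw [show 6 - 4 = 2 from rfl, P2]; norm_num)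
  · exact kill (K := 11) hk (by norm_num) hcnt rfl hs' (by rw [show 6 - 5 = 1 from rfl, P1]; norm_num)
  · -- `y` has a fixed vector
    have hyp : IsPGroup 3 (Subgroup.zpowers y) := IsPGroup.of_card (n := 1) (by rw [Nat.card_zpowers, hy, pow_one])
    obtain ⟨Q, hQ⟩ := hyp.exists_le_sylow
    obtain ⟨u, hu0, hu⟩ := A.fixd (Or.inr (by norm_num)) Q
    have h1 : Nat.card {u : U // y • u = u} = 1 := by rw [hfix]; norm_num
    obtain ⟨h2, -⟩ := Nat.card_eq_one_iff_unique.1 h1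
    have h5 : (⟨u, hu y (hQ (Subgroup.mem_zpowers y))⟩ : {u : U // y • u = u}) = ⟨0, smul_zero y⟩ :=
      Subsingleton.elim _ _
    exact hu0 (congrArg Subtype.val h5)

end Cfsg.Agent.H994.NX
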